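import Cfsg.Agent.TwistTensor.Orders

/-!
# Element orders of the extension of `2 × PSL₂(q)` by many copies of the twisted tensor module
-/

set_option autoImplicit false

namespace CfsgLib.ReeCube

open Matrix CfsgLib.SL2 CfsgLib.TwistTensor

variable (F : Type) [Field F] [CharP F 3]

/-- Tuples in the extension with one common image in the acting group. -/
def Big (n : ℕ) : Subgroup (Fin (n + 1) → Ext F) where
  carrier := {f | ∀ i, (f i).right = (f 0).right}
  one_mem' _ := rfl
  mul_mem' {f g} hf hg i := by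
    simp only [Pi.mul_apply, SemidirectProduct.mul_right, hf i, hg i]
  inv_mem' {f} hf i := by
    simp only [Pi.inv_apply, SemidirectProduct.inv_right, hf i]

variable {F}

/-- The diagonal. -/
def diag (n : ℕ) : Ext F →* ↥(Big F n) where
  toFun x := ⟨fun _ => x, fun _ => rfl⟩
  map_one' := rfl
  map_mul' _ _ := rfl

theorem diag_injective (n : ℕ) : Function.Injective (diag (F := F) n) := fun _ _ h =>
  congrFun (congrArg Subtype.val h) 0

theorem range_subset (n : ℕ) :
    Set.range (orderOf : Ext F → ℕ) ⊆ Set.range (orderOf : ↥(Big F n) → ℕ) := by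
  rintro _ ⟨x, rfl⟩
  exact ⟨diag n x, orderOf_injective _ (diag_injective n) x⟩

theorem exists_eq [Finite F] (n : ℕ) (f : ↥(Big F n)) : ∃ i, orderOf (f.1 i) = orderOf f := by
  haveI : Finite (Ext F) := Finite.of_equiv _ SemidirectProduct.equivProd.symm
  set o := orderOf (f.1 0).right
  have hi : ∀ i, o ∣ orderOf (f.1 i) := fun i => by
    have := orderOf_map_dvd SemidirectProduct.rightHom (f.1 i)
    rwa [show (SemidirectProduct.rightHom (f.1 i)) = (f.1 0).right from f.2 i] at this
  have h3 : ∀ i, f.1 i ^ (o * 3) = 1 := fun i =>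
    pow_pow_three (f.1 i) o (by rw [f.2 i]; exact pow_orderOf_eq_one _)
  have hd : ∀ i, orderOf (f.1 i) ∣ orderOf f := fun i => by
    rw [orderOf_dvd_iff_pow_eq_one]
    exact congrFun (congrArg Subtype.val (pow_orderOf_eq_one f)) i
  have ho : 0 < o := orderOf_pos _
  by_cases h : ∀ i, f.1 i ^ o = 1
  · exact ⟨0, Nat.dvd_antisymm (hd 0)
      ((orderOf_dvd_of_pow_eq_one (Subtype.ext (funext h))).trans (hi 0))⟩
  · push Not at h
    obtain ⟨i, hne⟩ := h
    refine ⟨i, Nat.dvd_antisymm (hd i) ?_⟩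
    obtain ⟨t, ht⟩ := hi i
    have ht3 : t ∣ 3 := Nat.dvd_of_mul_dvd_mul_left ho (ht ▸ orderOf_dvd_of_pow_eq_one (h3 i))
    rcases (Nat.dvd_prime Nat.prime_three).1 ht3 with rfl | rfl
    · exact absurd (by rw [← mul_one o, ← ht, pow_orderOf_eq_one]) hne
    · rw [ht]
      exact orderOf_dvd_of_pow_eq_one (Subtype.ext (funext h3))

theorem range_eq [Finite F] (n : ℕ) :
    Set.range (orderOf : ↥(Big F n) → ℕ) = Set.range (orderOf : Ext F → ℕ) :=
  Set.Subset.antisymm (by rintro _ ⟨f, rfl⟩; obtain ⟨i, hi⟩ := exists_eq n f; exact ⟨_, hi⟩) (range_subset n)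

theorem lt_card [Finite F] (n : ℕ) : n < Nat.card ↥(Big F n) := by
  haveI : Finite (Ext F) := Finite.of_equiv _ SemidirectProduct.equivProd.symm
  let f : (Fin (n + 1) → TwistTensor.Mod F) → ↥(Big F n) := fun w =>
    ⟨fun i => SemidirectProduct.inl (w i), fun _ => rfl⟩
  have hinj : Function.Injective f := fun a b h =>
    funext fun i => SemidirectProduct.inl_injective (congrFun (congrArg Subtype.val h) i)
  refine lt_of_lt_of_le ?_ (Nat.card_le_card_of_injective f hinj)
  rw [Nat.card_fun, Nat.card_fin]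
  calc n < 2 ^ n := Nat.lt_two_pow_self
    _ ≤ 2 ^ (n + 1) := Nat.pow_le_pow_right (by norm_num) (Nat.le_succ n)
    _ ≤ _ := Nat.pow_le_pow_left (Finite.one_lt_card) _

/-- The four maximal orders occur and bound the others. -/
theorem spectrum [Fintype F] {A B : ℕ} (hA : Fintype.card F - 1 = 2 * A) (hA3 : A.Coprime 6)
    (hB : Fintype.card F + 1 = 2 * B) (hB2 : 2 ∣ B) (hB3 : B.Coprime 3) (hB4 : ¬ 4 ∣ B) (d : ℕ) :
    d ∈ Set.range (orderOf : Ext F → ℕ) ↔ d ∣ 6 ∨ d ∣ 9 ∨ d ∣ 2 * A ∨ d ∣ B := by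
  haveI : Finite (Ext F) := Finite.of_equiv _ SemidirectProduct.equivProd.symm
  constructor
  · rintro ⟨x, rfl⟩
    simpa only [orderOf_dvd_iff_pow_eq_one] using exists_cases hA hA3 hB hB2 hB3 hB4 x
  · have closed : ∀ {M : ℕ}, M ∈ Set.range (orderOf : Ext F → ℕ) → ∀ {d : ℕ}, d ∣ M →
        d ∈ Set.range (orderOf : Ext F → ℕ) := by
      rintro M ⟨x, rfl⟩ d hd
      exact ⟨_, orderOf_pow_orderOf_div (orderOf_pos x).ne' hd⟩
    have hmem : ∀ (g : SpecialLinearGroup (Fin 2) F) (e : ℤˣ),
        Nat.lcm (orderOf (proj g)) (orderOf e) ∈ Set.range (orderOf : Ext F → ℕ) := fun g e =>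
      ⟨SemidirectProduct.inr ⟨aut (g, e), MonoidHom.mem_range.2 ⟨_, rfl⟩⟩, by
        rw [orderOf_injective _ SemidirectProduct.inr_injective, Subgroup.orderOf_mk, orderOf_aut]⟩
    have hcen : Nat.card (Subgroup.center (SpecialLinearGroup (Fin 2) F)) = 2 := by
      rw [card_center_eq_gcd, hA]; exact Nat.gcd_eq_left (dvd_mul_right 2 A)
    have rA : 2 * A ∈ Set.range (orderOf : Ext F → ℕ) := by
      obtain ⟨u, hu⟩ := diagT_generator (F := F)
      rw [Nat.card_eq_fintype_card, hA] at hu
      have h := hmem (diagT u) (-1)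
      rwa [orderOf_proj_eq (by rw [hcen, hu]; exact dvd_mul_right 2 A), hcen, hu,
        Nat.mul_div_cancel_left _ two_pos, show orderOf (-1 : ℤˣ) = 2 from orderOf_eq_prime (by decide) (by decide),
        Nat.Coprime.lcm_eq_mul (hA3.coprime_dvd_right (by norm_num)), mul_comm] at h
    have rB : B ∈ Set.range (orderOf : Ext F → ℕ) := by
      obtain ⟨g, hg, -⟩ := exists_elliptic_generator F
      rw [Nat.card_eq_fintype_card, hB] at hg
      have h := hmem g 1
      rwa [orderOf_proj_eq (by rw [hcen, hg]; exact dvd_mul_right 2 B), hcen, hg,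
        Nat.mul_div_cancel_left _ two_pos, orderOf_one, Nat.lcm_one_right] at h
    rintro (h | h | h | h)
    · exact closed mem_range_six h
    · exact closed mem_range_nine h
    · exact closed rA h
    · exact closed rB h

end CfsgLib.ReeCube
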